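import Mathlib
import Cfsg.Agent.Lib.Helper83.SnB.Q8MDefs
import Cfsg.Agent.Lib.Helper84.PCoreBasic

set_option autoImplicit false

/-! S2986, package [Q8-M] (coordinator helper83), sub-package [M-GF]. -/

namespace Cfsg.Agent.Lib.Helper38.SnB

open Cfsg Cfsg.Agent.Lib.Helper41.SnB Cfsg.Agent.Lib.Helper34.SnB Cfsg.Agent.Lib.Helper83.SnB

universe u

/-- An element killed by a power of `2` and by a power of `3` is trivial. -/
theorem eq_one_of_two_three {G : Type u} [Group G] (x : G) (m n : ℕ) (h2 : x ^ (2 ^ m) = 1)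
    (h3 : x ^ (3 ^ n) = 1) : x = 1 := by
  have hcop : Nat.Coprime (2 ^ m) (3 ^ n) := Nat.Coprime.pow _ _ (by norm_num)
  have hd : orderOf x ∣ Nat.gcd (2 ^ m) (3 ^ n) :=
    Nat.dvd_gcd (orderOf_dvd_of_pow_eq_one h2) (orderOf_dvd_of_pow_eq_one h3)
  rw [hcop.gcd_eq_one, Nat.dvd_one] at hd
  exact orderOf_eq_one_iff.mp hd

/-- The generators of `V = Ω₁(Z(O_p(G)))`. -/
theorem Vb_le_inf {G : Type u} [Group G] (p : ℕ) :
    Vb p G ≤ pCore p G ⊓ Subgroup.centralizer (pCore p G : Set G) := by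
  unfold Vb omegaOneCenter omegaOne
  rw [Subgroup.closure_le]
  intro x hx
  exact hx.1

theorem pkgGF : PkgGF.{u} := by
  intro G _ _ p _ hp3 hG S₀ hsyl
  have hPp : ∀ c ∈ pCore p G, ∃ n : ℕ, c ^ (3 ^ n) = 1 := by
    intro c hc
    have h := Cfsg.Agent.Lib.Helper84.pCore_isPGroup p G
    obtain ⟨n, hn⟩ := h ⟨c, hc⟩
    refine ⟨n, ?_⟩
    have h1 : c ^ (p ^ n) = 1 := by
      have := congrArg Subtype.val hn
      simpa using this
    rw [← hp3]; exact h1
  have hPn : ∀ g : G, ∀ c ∈ pCore p G, g * c * g⁻¹ ∈ pCore p G := by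
    intro g c hc
    exact (Cfsg.pCore_normal p G).conj_mem c hc g
  have hS2 : ∀ x ∈ S₀, ∃ m : ℕ, x ^ (2 ^ m) = 1 := by
    intro x hx
    obtain ⟨m, hm⟩ := hsyl.1 ⟨x, hx⟩
    refine ⟨m, ?_⟩
    have := congrArg Subtype.val hm
    simpa using this
  have hVle := Vb_le_inf (G := G) p
  have hVP : Vb p G ≤ pCore p G := hVle.trans inf_le_left
  have hVc : ∀ v ∈ Vb p G, ∀ c ∈ pCore p G, v * c = c * v := by
    intro v hv c hc
    have h : v ∈ Subgroup.centralizer (pCore p G : Set G) := (hVle hv).2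
    rw [Subgroup.mem_centralizer_iff] at h
    exact (h c hc).symm
  refine ⟨hp3, hG, hsyl, hPp, hPn, hS2, ?_, hVP, ?_, hVc, ?_⟩
  · -- ST
    intro x hx hxc
    have hxC : x ∈ Subgroup.centralizer (pCore p G : Set G) := by
      rw [Subgroup.mem_centralizer_iff]
      intro c hc
      exact (hxc c hc).symm
    obtain ⟨n, hn⟩ := hPp x (hG hxC)
    obtain ⟨m, hm⟩ := hS2 x hx
    exact eq_one_of_two_three x m n hm hn
  · -- Vn
    intro g v hv
    have hgen : ∀ x ∈ {x : G | x ∈ pCore p G ⊓ Subgroup.centralizer (pCore p G : Set G) ∧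
        x ^ p = 1}, g * x * g⁻¹ ∈ Vb p G := by
      intro x hx
      apply Subgroup.subset_closure
      refine ⟨⟨hPn g x hx.1.1, ?_⟩, ?_⟩
      · have hN : (Subgroup.centralizer (pCore p G : Set G)).Normal := inferInstance
        exact hN.conj_mem x hx.1.2 g
      · rw [conj_pow, hx.2]; group
    have aux : ∀ w ∈ Subgroup.closure {x : G | x ∈ pCore p G ⊓
        Subgroup.centralizer (pCore p G : Set G) ∧ x ^ p = 1}, g * w * g⁻¹ ∈ Vb p G := by
      intro w hw
      induction hw using Subgroup.closure_induction with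
      | mem x hx => exact hgen x hx
      | one => simp
      | mul x y _ _ hx hy =>
        have : g * (x * y) * g⁻¹ = (g * x * g⁻¹) * (g * y * g⁻¹) := by group
        rw [this]; exact Subgroup.mul_mem _ hx hy
      | inv x _ hx =>
        have : g * x⁻¹ * g⁻¹ = (g * x * g⁻¹)⁻¹ := by group
        rw [this]; exact Subgroup.inv_mem _ hx
    exact aux v hv
  · -- V3
    intro v hv
    have aux : ∀ w ∈ Subgroup.closure {x : G | x ∈ pCore p G ⊓
        Subgroup.centralizer (pCore p G : Set G) ∧ x ^ p = 1}, w ∈ Vb p G ∧ w ^ 3 = 1 := by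
      intro w hw
      induction hw using Subgroup.closure_induction with
      | mem x hx => exact ⟨Subgroup.subset_closure hx, by rw [← hp3]; exact hx.2⟩
      | one => exact ⟨Subgroup.one_mem _, one_pow _⟩
      | mul x y _ _ hx hy =>
        refine ⟨Subgroup.mul_mem _ hx.1 hy.1, ?_⟩
        have hcomm : Commute x y := hVc x hx.1 y (hVP hy.1)
        rw [hcomm.mul_pow, hx.2, hy.2, one_mul]
      | inv x _ hx => exact ⟨Subgroup.inv_mem _ hx.1, by rw [inv_pow, hx.2, inv_one]⟩
    exact (aux v hv).2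

end Cfsg.Agent.Lib.Helper38.SnB
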