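import Mathlib
import Cfsg.Agent.Lib.Helper83.SnB.Q8MDefs
import Cfsg.Agent.Lib.Helper38.SnB.Q8MGF

set_option autoImplicit false

/-! S2986, package [Q8-M] (coordinator helper83), sub-package [M-OB1]. -/

namespace Cfsg.Agent.Lib.Helper38.SnB

open Cfsg Cfsg.Agent.Lib.Helper41.SnB Cfsg.Agent.Lib.Helper34.SnB Cfsg.Agent.Lib.Helper83.SnB

universe u

/-- `Ω₁(Z(Y))` is generated by commuting elements of order dividing `p`. -/
theorem omegaOneCenter_pow {G : Type u} [Group G] (p : ℕ) (Y : Subgroup G) :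
    ∀ w ∈ Subgroup.closure {x : G | x ∈ Y ⊓ Subgroup.centralizer (Y : Set G) ∧ x ^ p = 1},
      (w ∈ Y ⊓ Subgroup.centralizer (Y : Set G)) ∧ w ^ p = 1 := by
  intro w hw
  induction hw using Subgroup.closure_induction with
  | mem x hx => exact hx
  | one => exact ⟨Subgroup.one_mem _, one_pow _⟩
  | mul x y _ _ hx hy =>
    refine ⟨Subgroup.mul_mem _ hx.1 hy.1, ?_⟩
    have hc : y ∈ Subgroup.centralizer (Y : Set G) := hy.1.2
    rw [Subgroup.mem_centralizer_iff] at hc
    have hcomm : Commute x y := hc x hx.1.1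
    rw [hcomm.mul_pow, hx.2, hy.2, one_mul]
  | inv x _ hx => exact ⟨Subgroup.inv_mem _ hx.1, by rw [inv_pow, hx.2, inv_one]⟩

/-- In a group of order `8` with a central involution `z` such that every element is `1`, `z`
or squares to `z`, some commutator equals `z`. -/
theorem q8_nonab {G : Type u} [Group G] (K : Subgroup G) (z : G) (hcard : Nat.card ↥K = 8)
    (hzK : z ∈ K) (hzz : z * z = 1) (hzc : ∀ k ∈ K, z * k = k * z)
    (hsq : ∀ k ∈ K, k = 1 ∨ k = z ∨ k * k = z) :
    ∃ k ∈ K, ∃ k' ∈ K, k * k' * k⁻¹ * k'⁻¹ = z := by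
  classical
  have : Finite ↥K := Nat.finite_of_card_ne_zero (by rw [hcard]; norm_num)
  have hex : ∀ s : Finset ↥K, s.card < 8 → ∃ k : ↥K, k ∉ s := by
    intro s hs
    by_contra hcon
    push Not at hcon
    have : Fintype ↥K := Fintype.ofFinite _
    have : s = Finset.univ := Finset.eq_univ_iff_forall.mpr hcon
    rw [this, Finset.card_univ, ← Nat.card_eq_fintype_card, hcard] at hs
    exact lt_irrefl _ hs
  obtain ⟨k, hk⟩ := hex {1, ⟨z, hzK⟩} (lt_of_le_of_lt (Finset.card_insert_le _ _) (by simp))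
  have hk1 : (k : G) ≠ 1 := by
    intro h
    apply hk
    have : k = 1 := Subtype.ext h
    rw [this]; simp
  have hkz : (k : G) ≠ z := by
    intro h
    apply hk
    have : k = ⟨z, hzK⟩ := Subtype.ext h
    rw [this]; simp
  have hkk : (k : G) * k = z := by
    rcases hsq k k.2 with h | h | h
    · exact absurd h hk1
    · exact absurd h hkz
    · exact h
  obtain ⟨k', hk'⟩ := hex {1, k, ⟨z, hzK⟩, k⁻¹} (by
    refine lt_of_le_of_lt (Finset.card_insert_le _ _) ?_
    have h1 : ({k, ⟨z, hzK⟩, k⁻¹} : Finset ↥K).card ≤ 3 := by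
      refine (Finset.card_insert_le _ _).trans ?_
      have h2 : ({⟨z, hzK⟩, k⁻¹} : Finset ↥K).card ≤ 2 := Finset.card_le_two
      omega
    omega)
  simp only [Finset.mem_insert, Finset.mem_singleton, not_or] at hk'
  obtain ⟨h1', hkne, hz', hinv'⟩ := hk'
  have hk'1 : (k' : G) ≠ 1 := fun h => h1' (Subtype.ext h)
  have hk'z : (k' : G) ≠ z := fun h => hz' (Subtype.ext h)
  have hk'k' : (k' : G) * k' = z := by
    rcases hsq k' k'.2 with h | h | h
    · exact absurd h hk'1
    · exact absurd h hk'z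
    · exact h
  have hzk : z * (k : G) = k * z := hzc k k.2
  have hzk' : z * (k' : G) = k' * z := hzc k' k'.2
  have hkinv : (k : G)⁻¹ = z * k := by
    have : (k : G) * (z * k) = 1 := by
      rw [hzk, ← mul_assoc, hkk, hzz]
    exact inv_eq_of_mul_eq_one_right this
  have hk'inv : (k' : G)⁻¹ = z * k' := by
    have : (k' : G) * (z * k') = 1 := by
      rw [hzk', ← mul_assoc, hk'k', hzz]
    exact inv_eq_of_mul_eq_one_right this
  have hprod1 : (k : G) * k' ≠ 1 := by
    intro h
    apply hinv'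
    apply Subtype.ext
    have : (k' : G) = (k : G)⁻¹ := (inv_eq_of_mul_eq_one_right h).symm
    simpa using this
  have hprodz : (k : G) * k' ≠ z := by
    intro h
    apply hkne
    apply Subtype.ext
    -- k k' = z = k k, so k' = k
    have : (k : G) * k' = k * k := by rw [h, hkk]
    exact mul_left_cancel this
  have hprodsq : ((k : G) * k') * (k * k') = z := by
    rcases hsq (k * k') (K.mul_mem k.2 k'.2) with h | h | h
    · exact absurd h hprod1
    · exact absurd h hprodz
    · exact h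
  refine ⟨k, k.2, k', k'.2, ?_⟩
  rw [hkinv, hk'inv]
  calc (k : G) * k' * (z * k) * (z * k')
      = (k : G) * k' * (z * (k * z)) * k' := by group
    _ = (k : G) * k' * (z * (z * k)) * k' := by rw [hzk]
    _ = (k : G) * k' * ((z * z) * k) * k' := by group
    _ = (k : G) * k' * (k * k') := by rw [hzz]; group
    _ = z := hprodsq

theorem pkgOB1 : PkgOB1.{u} := by
  intro G _ _ p _ S₀ X K z gf sb bf q8
  have hp3 := gf.p3
  have hW3 : ∀ w ∈ Wb p X, w ^ 3 = 1 := by
    intro w hw
    have := (omegaOneCenter_pow p (pCoreOf p X) w hw).2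
    rw [hp3] at this
    exact this
  have hK8 : ∀ k ∈ K, k ^ 8 = 1 := by
    intro k hk
    have h := pow_card_eq_one' (G := ↥K) (x := ⟨k, hk⟩)
    rw [q8.cardK] at h
    have := congrArg Subtype.val h
    simpa using this
  have hPXQ : ∀ e ∈ X, ∀ c ∈ pCore p G, e * c * e⁻¹ * c⁻¹ ∈ Qb p X := by
    intro e he c hc
    apply sb.EP
    refine ⟨?_, ?_⟩
    · have hcN : c ∈ Subgroup.normalizer (X : Set G) := sb.PN hc
      rw [Subgroup.mem_normalizer_iff] at hcN
      have h1 : c * e⁻¹ * c⁻¹ ∈ X := (hcN e⁻¹).mp (X.inv_mem he)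
      have : e * c * e⁻¹ * c⁻¹ = e * (c * e⁻¹ * c⁻¹) := by group
      rw [this]; exact X.mul_mem he h1
    · have h1 : e * c * e⁻¹ ∈ pCore p G := gf.Pn e c hc
      exact Subgroup.mul_mem _ h1 (Subgroup.inv_mem _ hc)
  refine ⟨hW3, hPXQ, ?_, hK8, ?_, ?_, ?_⟩
  · -- KP
    intro k hk hkP
    have hkQ : k ∈ Qb p X := sb.EP ⟨q8.KX hk, hkP⟩
    obtain ⟨n, hn⟩ := bf.Qp ⟨k, hkQ⟩
    have h3 : k ^ (3 ^ n) = 1 := by
      have h1 : k ^ (p ^ n) = 1 := by
        have := congrArg Subtype.val hn
        simpa using this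
      rw [← hp3]; exact h1
    exact eq_one_of_two_three k 3 n (by simpa using hK8 k hk) h3
  · -- nonab
    exact q8_nonab K z q8.cardK q8.zK q8.zz q8.zc q8.sq
  · -- VQW
    intro v hv
    obtain ⟨hvV, hvQ⟩ := hv
    apply Subgroup.subset_closure
    refine ⟨⟨hvQ, ?_⟩, ?_⟩
    · show v ∈ Subgroup.centralizer ((pCoreOf p X : Subgroup G) : Set G)
      rw [Subgroup.mem_centralizer_iff]
      intro q hq
      exact (gf.Vc v hvV q (sb.QP hq)).symm
    · rw [hp3]; exact gf.V3 v hvV
  · -- AZ0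
    intro a ha haZ
    have hinv := q8.invA a ha
    have hzX : z ∈ X := q8.KX q8.zK
    have hcomm : z * a = a * z := by
      have h := haZ.2
      have h' : a ∈ Subgroup.centralizer (X : Set G) := h
      rw [Subgroup.mem_centralizer_iff] at h'
      exact h' z hzX
    have h2 : a * a = 1 := by
      have : z * a * z⁻¹ = a := by rw [hcomm]; group
      rw [this] at hinv
      calc a * a = a * a⁻¹ := by rw [← hinv]
        _ = 1 := mul_inv_cancel a
    have h3 : a ^ 3 = 1 := hW3 a (bf.AW ha)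
    calc a = a ^ 3 * (a * a)⁻¹ := by group
      _ = 1 := by rw [h3, h2]; group

end Cfsg.Agent.Lib.Helper38.SnB
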